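import Cfsg.Agent.Lib.O8.Mod

/-!
# Involution centralizers `2^{1+8}.(S₃ × S₃ × S₃)`: pairs of collinear points
-/

set_option autoImplicit false

namespace Cfsg.Lib.O8

open Subgroup QuadraticMap Cfsg.Lib.ES Cfsg.Lib.Orth Cfsg.Lib.U6

variable {G : Type*} [Group G] {V : Type*} [AddCommGroup V] [Module (ZMod 2) V] {q : QuadraticForm (ZMod 2) V}
  {μ : B3 →* O q} {z w b c x : G} {Q R : Subgroup G} {α β : B3} {v : V}

theorem MS.orb {u : V} (h : MS μ α u) (h' : MS μ β v) : ∃ g, (μ g).1 u = v := by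
  choose g hg using fun i => p_syl _ _ (h.iv i) (h'.iv i)
  refine ⟨g, ((O.inv_apply_eq _).1 ((h.fix _ fun i => ?_).resolve_left (O.apply_ne_zero _ h'.ne))).symm⟩
  rw [← map_inv, ← μ_mul, ← hg, ← inv_inv (g i), inv_inv (g i)⁻¹, ← Pi.inv_apply, ← sg_conj, μ_mul,
    (h'.stab _).2 (sg_in (.inr rfl))]

variable (μ z Q) in
/-- Coordinates in which the centralizer induces `S₃ × S₃ × S₃`. -/
structure SD extends CD z Q q where
  inj : Function.Injective μ
  eq : toCD.Γ = μ.range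
  card : Nat.card Q = 2 ^ 9

namespace SD

variable (D : SD μ z Q)

/-- Conjugate data. -/
def cj [Finite G] (g : G) : SD μ (g * z * g⁻¹) (Q.map (MulAut.conj g).toMonoidHom) :=
  ⟨D.toCD.cj g, D.inj, (D.cj_Γ g).trans D.eq, (Core.card_map_conj g Q).trans D.card⟩

/-- The image in `S₃ × S₃ × S₃`. -/
noncomputable def la (c : G) : B3 := Function.invFun μ (D.ρ c)

theorem μ_la (h : Commute z c) : μ (D.la c) = D.ρ c := Function.invFun_eq (D.eq.le (D.ρ_mem h))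
theorem la_mul (h : Commute z b) (h' : Commute z c) : D.la (b * c) = D.la b * D.la c :=
  D.inj (by rw [map_mul, D.μ_la h, D.μ_la h', D.μ_la (h.mul_right h'), D.ρ_mul h h'])
theorem la_eq_one (h : Commute z c) : D.la c = 1 ↔ c ∈ Q := by
  rw [← D.ker h, ← D.μ_la h, map_eq_one_iff _ D.inj]
theorem la_of_mem (h : x ∈ Q) : D.la x = 1 := (D.la_eq_one (D.cz h)).2 h
theorem la_inv (h : Commute z c) : D.la c⁻¹ = (D.la c)⁻¹ :=
  eq_inv_of_mul_eq_one_left (by rw [← D.la_mul h.inv_right h, inv_mul_cancel, D.la_of_mem (one_mem _)])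
theorem la_conj (h : Commute z b) (h' : Commute z c) : D.la (b * c * b⁻¹) = D.la b * D.la c * (D.la b)⁻¹ := by
  rw [D.la_mul (h.mul_right h') h.inv_right, D.la_mul h h', D.la_inv h]
theorem la_surj (g : B3) : ∃ c, Commute z c ∧ D.la c = g :=
  let ⟨c, h, e⟩ := D.mem_Γ.1 (D.eq.ge ⟨g, rfl⟩); ⟨c, h, D.inj ((D.μ_la h).trans e)⟩
theorem π_cj (h : Commute z c) (hx : x ∈ Q) : D.π (c * x * c⁻¹) = (μ (D.la c)).1 (D.π x) := by
  rw [D.π_conj h hx, D.μ_la h]
theorem mem_of_la (h : Commute z b) (h' : Commute z c) (e : D.la b = D.la c) : b * c⁻¹ ∈ Q :=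
  D.mul_inv_mem h h' (by rw [← D.μ_la h, e, D.μ_la h'])

include D in
theorem cardV : Nat.card V = 256 := by have := D.card_V; rw [D.card] at this; omega

theorem card_comap (R : Subgroup G) : Nat.card ((D.img R).comap μ) = Nat.card (D.img R) := by
  rw [← card_map_of_injective D.inj, map_comap_eq_self (show D.img R ≤ μ.range from (map_le_range _ _).trans D.eq.le)]

theorem mem_comap {g : B3} : g ∈ (D.img R).comap μ ↔ ∃ r ∈ R, Commute z r ∧ D.la r = g :=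
  D.mem_img.trans (exists_congr fun _ => and_congr_right fun _ => and_congr_right fun h => by
    rw [← D.μ_la h, D.inj.eq_iff])

theorem fix_iff (pr : Pr Q R z w) (hb : b ∈ R) (h : Commute z b) (hx : x ∈ Q ⊓ R) :
    (μ (D.la b)).1 (D.π x) = D.π x ↔ Commute b x := by
  rw [D.μ_la h]
  refine ⟨fun e => ?_, D.fix_of_commute h hx.1⟩
  rcases D.conj_of_fix h hx.1 e with k | k
  · exact mul_inv_eq_iff_eq_mul.1 k
  rcases pr.r.conj_eq_or hb hx.2 with k' | k'
  · exact mul_inv_eq_iff_eq_mul.1 k'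
  · exact absurd (mul_left_cancel ((k.symm.trans k').trans (pr.r.comm hx.2).symm)) pr.ne.symm

theorem mem_of_sub (h : z ∈ R) (hx : x ∈ Q) (e : D.π x ∈ D.sub R) : x ∈ R := by
  obtain ⟨y, hy, e⟩ := e
  rcases (D.π_eq_iff hy.1 hx).1 e with rfl | rfl
  exacts [hy.2, mul_mem hy.2 h]

variable [Finite G]

theorem pair_card (pr : Pr Q R z w) (hR : Nat.card R = 2 ^ 9) : 8 ≤ Nat.card ((D.img R).comap μ) ∧
    ∀ v, (∀ u ∈ D.sub R, polar q u v = 0) → v ∈ D.sub R := by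
  have := D.finite
  have h1 := D.card_pair pr (hR.trans D.card.symm)
  have h2 := D.xd.card_inf_le pr (n := 4) D.card
  have h3 := D.card_sub_of_mem pr.mem_r
  have h4 := (sylow (A := (D.img R).comap μ) fun g hg => D.inj (by
    rw [map_mul, map_one]; exact (D.img_fix pr hg).1)).1
  have h5 := card_perp D.nd (D.sub R)
  rw [D.card_comap] at h4 ⊢
  rw [D.card] at h1
  rw [D.cardV] at h5
  have h6 : Nat.card (D.sub R) = 16 := le_antisymm (by omega) (by nlinarith)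
  refine ⟨by nlinarith, fun v hv => Set.mem_of_mem_of_subset (show v ∈ (perp q (D.sub R) : Set V) from mem_perp.2 hv)
    (Set.Finite.eq_of_subset_of_card_le (s := (D.sub R : Set V)) (Set.toFinite _) (fun u hu => mem_perp.2 fun u' hu' => ?_)
    (show Nat.card (perp q (D.sub R)) ≤ Nat.card (D.sub R) by rw [h6] at h5 ⊢; omega)).ge⟩
  simpa [Q_add, D.sing pr hu, D.sing pr hu'] using D.sing pr (add_mem hu' hu)

variable (R w α) in
/-- The module structure given by a collinear point. -/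
structure Pa : Prop where
  ms : MS μ α (D.π w)
  wm : ∀ i g, (μ (sg i g)).1 (D.π w) ∈ D.sub R
  img : ∀ b ∈ R, Commute z b → ∀ i, In (α i) (D.la b i)
  mv : ∀ g : B3, (∀ i, In (α i) (g i)) → ∀ u ∈ D.sub R, (μ g).1 u = u ∨ (μ g).1 u = u + D.π w

theorem exists_pa (D' : SD μ w R) (pr : Pr Q R z w) : ∃ α, D.Pa w R α := by
  have := D.finite
  obtain ⟨h1, h2⟩ := D.pair_card pr D'.card
  obtain ⟨α, iv, h⟩ := (sylow (A := (D.img R).comap μ) fun g hg => D.inj (by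
    rw [map_mul, map_one]; exact (D.img_fix pr hg).1)).2 h1
  have mv : ∀ g : B3, (∀ i, In (α i) (g i)) → ∀ u ∈ D.sub R, (μ g).1 u = u ∨ (μ g).1 u = u + D.π w := by
    rintro g hg _ ⟨x, hx, rfl⟩
    obtain ⟨r, r1, r2, rfl⟩ := D.mem_comap.1 ((h g).2 hg)
    rw [← D.π_cj r2 hx.1, ← D.π_mul hx.1 pr.mem_l, pr.r.comm hx.2]
    exact (pr.r.conj_eq_or r1 hx.2).imp (congrArg _) (congrArg _)
  obtain ⟨k1, k2⟩ := ms_of (μ := μ) D.nd iv (D.π_ne pr.mem_l pr.r.ne_one pr.ne) (W := D.sub R) ⟨w, ⟨pr.mem_l, pr.r.mem⟩, rfl⟩ h2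
    (fun g => ⟨fun e i => p_norm _ _ (iv i) (by
      simpa using (h (g * sg i (α i) * g⁻¹)).1 (by
        rw [Subgroup.mem_comap, map_mul, map_mul, map_inv]
        exact D.conj_mem_img pr (D.eq.ge ⟨g, rfl⟩) e ((h _).2 (sg_in (.inr rfl)))) i),
      fun e => (D.img_fix pr ((h g).2 e)).2⟩) mv (fun g hg e => by
      obtain ⟨r, r1, r2, rfl⟩ := D.mem_comap.1 ((h g).2 hg)
      refine D.la_of_mem (D'.mem_of_sub pr.mem_l r1 ((D'.pair_card pr.symm D.card).2 _ ?_))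
      rintro _ ⟨x, hx, rfl⟩
      exact (D'.comm hx.1 r1).1 ((D.fix_iff pr r1 r2 ⟨hx.2, hx.1⟩).1 (e _ ⟨x, ⟨hx.2, hx.1⟩, rfl⟩)).symm) (by
      rintro _ ⟨x, hx, rfl⟩ e
      have k : x ∈ closure ({w, z} : Set G) := pr.symm.centralizer_inf_le D'.es fun r hr => by
        have a := commute_iff_mem.2 hr.2
        have b := (h _).1 (D.mem_comap.2 ⟨r, hr.1, a, rfl⟩)
        have c : ∀ i, (μ (sg i (D.la r i))).1 (D.π x) = D.π x := fun i =>
          (b i).elim (fun k => by rw [k, sg_one, μ_one]) fun k => k ▸ e i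
        exact (D.fix_iff pr hr.1 a hx).1 (by rw [sg_prod (D.la r), μ_mul, μ_mul, c, c, c])
      rcases pr.symm.mem_iff.1 k with rfl | rfl | rfl | rfl
      exacts [.inl D.π_one, .inr rfl, .inl D.π_z, .inr (D.π_mul_z pr.mem_l)])
  exact ⟨α, k1, k2, fun b hb hz => (h _).1 (D.mem_comap.2 ⟨b, hb, hz, rfl⟩), mv⟩

theorem exists_ms (hx : x ∈ Q) (h : IsConj z x) (n : x ≠ z) : ∃ α, MS μ α (D.π x) := by
  obtain ⟨g, rfl⟩ := isConj_iff.1 h
  exact (D.exists_pa (D.cj g) (D.lg.pr hx n)).imp fun _ h => h.ms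

theorem type_one (D' : SD μ w R) (pr : Pr Q R z w) (P : D.Pa w R α) (P' : D'.Pa z Q β) :
    ∃ κ : Fin 3 → Fin 3, κ.Injective ∧ ∀ m, ∀ b ∈ R, ∀ g : B3, D'.π b = (μ g).1 (D'.π z) →
      (∀ j, In (β j) (g j) ↔ j = m) → Commute z b ∧ D.la b = sg (κ m) (α (κ m)) := by
  have k : ∀ j, ∃ x ∈ Q ⊓ R, D'.π x = (μ (sg j t3)).1 (D'.π z) ∧ ∃ i, ∀ g : B3, (∀ i, In (α i) (g i)) →
      ((μ g).1 (D.π x) = D.π x ↔ g i = 1) := fun j => by
    obtain ⟨c, hc, e⟩ := D'.la_surj (sg j t3)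
    have e1 := e ▸ D'.π_cj hc pr.mem_r
    have h1 := D'.conj_mem hc pr.mem_r
    have h2 := D'.mem_of_sub pr.mem_l h1 (e1 ▸ P'.wm j t3)
    have n : (μ (sg j t3)).1 (D'.π z) ≠ D'.π z := fun e => p_th _ _ (P'.ms.iv j) th3 (by simpa using (P'.ms.stab _).1 e j)
    obtain ⟨γ, M⟩ := D.exists_ms h2 (isConj_iff.2 ⟨c, rfl⟩) fun e => n (by rw [← e1, e])
    generalize c * z * c⁻¹ = x at *
    have s : ∀ i j, In (α j) (sg i (α i) j) := fun i => sg_in (.inr rfl)
    have mv : ∀ i, α i ≠ γ i → (μ (sg i (α i))).1 (D.π x) = D.π x + D.π w := fun i n =>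
      (P.mv _ (s i) _ ⟨x, ⟨h2, h1⟩, rfl⟩).resolve_left fun e =>
        (by simpa using (M.stab _).1 e i : In (γ i) (α i)).elim (P.ms.iv i).1 n
    obtain ⟨i, hi⟩ : ∃ i, α i ≠ γ i := by
      by_contra! e
      rcases (D.π_eq_iff pr.mem_l h2).1 ((P.ms.fix _ fun i => (M.stab _).2 (sg_in (.inr (e i)))).resolve_left
        M.ne).symm with rfl | rfl
      · exact O.apply_ne_zero _ P'.ms.ne (e1.symm.trans D'.π_z)
      · exact n (by rw [← e1, D'.π_mul D'.lg.mem pr.mem_r, D'.π_z, zero_add])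
    refine ⟨x, ⟨h2, h1⟩, e1, i, fun g hg => (M.stab g).trans ⟨fun h => (hg i).resolve_right fun e =>
      (h i).elim (fun e' => (P.ms.iv i).1 (e ▸ e')) fun e' => hi (e ▸ e'), fun h l => ?_⟩⟩
    by_cases e : l = i
    · exact .inl (e ▸ h)
    refine (show α l = γ l from by_contra fun n => ?_) ▸ hg l
    have := (M.stab (sg l (α l) * sg i (α i))).1 (by
      rw [μ_mul, mv i hi, map_add, mv l n, (P.ms.stab _).2 (s l), vadd_cancel']) l
    exact (by simpa [e] using this : In (γ l) (α l)).elim (P.ms.iv l).1 n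
  choose x hx e κ hκ using k
  have key : ∀ m, ∀ b ∈ R, ∀ g : B3, D'.π b = (μ g).1 (D'.π z) → (∀ j, In (β j) (g j) ↔ j = m) →
      Commute z b ∧ ∀ j, D.la b (κ j) = 1 ↔ j ≠ m := fun m b hb g eb hg => by
    have c : Commute z b := (D'.comm pr.mem_r hb).2 (eb ▸ (P'.ms.pol g).2 ⟨m, (hg m).2 rfl⟩)
    refine ⟨c, fun j => ?_⟩
    rw [← hκ j _ (P.img b hb c), D.fix_iff pr hb c (hx j), D'.comm hb (hx j).2, eb, e, O.polar_left, ← map_inv, ← μ_mul,
      P'.ms.pol]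
    refine ⟨?_, fun n => ⟨m, by simpa [n.symm] using ((hg m).2 rfl).inv (P'.ms.iv m)⟩⟩
    rintro ⟨i, h⟩ rfl
    by_cases k : i = j
    · subst k
      exact p_th _ _ (P'.ms.iv i) th3 (by simpa using ((hg i).2 rfl).mul (P'.ms.iv i) h)
    · exact k ((hg i).1 (by simpa [k] using h.inv (P'.ms.iv i)))
  have inj : κ.Injective := fun j j' h => by_contra fun n => by
    obtain ⟨b, hb, eb⟩ := D'.π_surj ((μ fun i => if i = j then 1 else t3).1 (D'.π z))
    have := (key j b hb _ eb fun i => by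
      by_cases k : i = j
      · simp [k, In]
      · simp [k, p_th _ _ (P'.ms.iv i) th3]).2
    exact (this j).1 (h ▸ (this j').2 (Ne.symm n)) rfl
  refine ⟨κ, inj, fun m b hb g eb hg => ?_⟩
  obtain ⟨c, h⟩ := key m b hb g eb hg
  refine ⟨c, funext fun i => ?_⟩
  obtain ⟨j, rfl⟩ := Finite.surjective_of_injective inj i
  by_cases k : j = m
  · subst k
    rw [sg_same]
    exact (P.img b hb c _).resolve_left fun e => (h j).1 e rfl
  · rw [(h j).2 k, sg_of_ne (inj.ne k)]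

end SD

variable (μ w R) in
/-- Four points collinear with `w`. -/
structure Cf (a : Fin 4 → G) (Q : Fin 4 → Subgroup G) where
  D : ∀ i, SD μ (a i) (Q i)
  κ : Fin 4 → Fin 4 → Fin 3
  α : Fin 4 → B3
  ms : ∀ i, MS μ (α i) ((D i).π w)
  pr : ∀ i, Pr (Q i) R (a i) w
  inj : ∀ {i j k}, j ≠ i → k ≠ i → κ i j = κ i k → j = k
  cm : ∀ i j, Commute (a i) (a j)
  la : ∀ {i j}, j ≠ i → (D i).la (a j) = sg (κ i j) (α i (κ i j))

/-- A frame. -/
def fr (i : Fin 4) : B3 := fun l => if i = 0 ∨ i = l.succ then 1 else t3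
/-- The common coordinate of two members of the frame. -/
def mm : Fin 4 → Fin 4 → Fin 3 := ![![0, 0, 1, 2], ![0, 0, 2, 1], ![1, 2, 0, 0], ![2, 1, 0, 0]]

theorem fr_mm : ∀ i j, j ≠ i → ∀ l, (l = mm i j ∧ fr j l * (fr i l)⁻¹ = 1) ∨ (l ≠ mm i j ∧ Th (fr j l * (fr i l)⁻¹)) := by
  decide +kernel

theorem exists_cf [Finite G] (D : SD μ z Q) (D' : SD μ w R) (pr : Pr Q R z w) :
    ∃ c : Fin 4 → G, (∀ i, Commute w (c i)) ∧
      Nonempty (Cf μ w R (fun i => c i * z * (c i)⁻¹) fun i => Q.map (MulAut.conj (c i)).toMonoidHom) := by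
  choose c hc e using fun i => D'.la_surj (fr i)
  have p : ∀ i, Pr (Q.map (MulAut.conj (c i)).toMonoidHom) R (c i * z * (c i)⁻¹) w := fun i =>
    ⟨D.lg.conj _, pr.r, ⟨w, pr.mem_l, mul_inv_eq_iff_eq_mul.2 (hc i).symm⟩, D'.conj_mem (hc i) pr.mem_r, fun k =>
      pr.ne (by simpa [mul_assoc, (hc i).eq] using congrArg (fun x => (c i)⁻¹ * x * c i) k)⟩
  choose α P using fun i => (D.cj (c i)).exists_pa D' (p i)
  choose β P' using fun i => D'.exists_pa (D.cj (c i)) (p i).symm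
  choose κ inj h using fun i => (D.cj (c i)).type_one D' (p i) (P i) (P' i)
  have k := fun i j (n : j ≠ i) => h i (mm i j) _ (p j).mem_r (fr j * (fr i)⁻¹) (by
    rw [D'.π_cj (hc i) pr.mem_r, D'.π_cj (hc j) pr.mem_r, e, e, ← μ_mul, inv_mul_cancel_right]) fun l => by
      rcases fr_mm i j n l with ⟨rfl, k⟩ | ⟨k, k'⟩
      exacts [iff_of_true (.inl k) rfl, iff_of_false (p_th _ _ ((P' i).ms.iv l) k') k]
  exact ⟨c, hc, ⟨⟨fun i => D.cj (c i), fun i j => κ i (mm i j), α, fun i => (P i).ms, p, fun {i j k} a b e =>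
    (by decide : ∀ i j k, j ≠ i → k ≠ i → mm i j = mm i k → j = k) i j k a b (inj i e),
    fun i j => if n : j = i then n ▸ .refl _ else (k i j n).1, fun n => (k _ _ n).2⟩⟩⟩

end Cfsg.Lib.O8
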