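import Cfsg.Agent.Lib.U6.WC

/-!
# The group `S₃ × S₃ × S₃` and its orthogonal tensor module over `𝔽₂`
-/

set_option autoImplicit false

namespace Cfsg.Lib.O8

open Subgroup QuadraticMap Cfsg.Lib.Orth Cfsg.Lib.U6

/-- The symmetric group of degree three. -/
abbrev P3 := Equiv.Perm (Fin 3)
/-- The product of three copies. -/
abbrev B3 := Fin 3 → P3
/-- An element of one factor. -/
def sg (i : Fin 3) (g : P3) : B3 := Pi.mulSingle i g

@[simp] theorem sg_same (i : Fin 3) (g : P3) : sg i g i = g := Pi.mulSingle_eq_same _ _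
@[simp] theorem sg_of_ne {i j : Fin 3} (h : j ≠ i) (g : P3) : sg i g j = 1 := Pi.mulSingle_eq_of_ne h _
theorem sg_mul (i : Fin 3) (g h : P3) : sg i (g * h) = sg i g * sg i h := Pi.mulSingle_mul (f := fun _ => P3) i g h
theorem sg_one (i : Fin 3) : sg i 1 = 1 := Pi.mulSingle_one i

/-- Involutions. -/
def Iv (a : P3) : Prop := a ≠ 1 ∧ a * a = 1
/-- Elements of order three. -/
def Th (t : P3) : Prop := t ≠ 1 ∧ t * t * t = 1
/-- Membership in the subgroup generated by an involution. -/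
def In (a g : P3) : Prop := g = 1 ∨ g = a

instance decIv (a : P3) : Decidable (Iv a) := inferInstanceAs (Decidable (_ ∧ _))
instance decTh (a : P3) : Decidable (Th a) := inferInstanceAs (Decidable (_ ∧ _))
instance decIn (a g : P3) : Decidable (In a g) := inferInstanceAs (Decidable (_ ∨ _))

theorem p_in : ∀ a b : P3, Iv a → b * b = 1 → a * b * (a * b) = 1 → In a b := by decide +kernel
theorem p_norm : ∀ a g : P3, Iv a → In a (g * a * g⁻¹) → In a g := by decide +kernel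
theorem p_inv : ∀ a t : P3, Iv a → Th t → a * t * a⁻¹ = t * t := by decide +kernel
theorem p_cen : ∀ a t : P3, Iv a → t * t * t = 1 → a * t = t * a → t = 1 := by decide +kernel
theorem p_dc : ∀ a g g' : P3, Iv a → ¬In a g → ¬In a g' → ∃ b : P3 × P3, In a b.1 ∧ In a b.2 ∧ g' = b.1 * g * b.2 := by
  decide +kernel
theorem p_four : ∀ b : P3, b * b * (b * b) = 1 → b * b = 1 := by decide +kernel
theorem p_gen : ∀ a t g : P3, Iv a → Th t → g = 1 ∨ g = a ∨ g = t ∨ g = t * t ∨ g = a * t ∨ g = t * a := by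
  decide +kernel
theorem p_th : ∀ a t : P3, Iv a → Th t → ¬In a t := by decide +kernel
theorem p_cj : ∀ g t : P3, Th t → Th (g⁻¹ * t * g) := by decide +kernel
theorem p_syl : ∀ a b : P3, Iv a → Iv b → ∃ g : P3, g⁻¹ * b * g = a := by decide +kernel
theorem In.comm {a g : P3} (h : In a g) : g * a = a * g := by rcases h with rfl | rfl <;> simp
theorem In.inv : ∀ {a g : P3}, Iv a → In a g → In a g⁻¹ := by decide +kernel
theorem In.mul : ∀ {a g h : P3}, Iv a → In a g → In a h → In a (g * h) := by decide +kernel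

/-- A fixed element of order three. -/
def t3 : P3 := finRotate 3
theorem th3 : Th t3 := by decide +kernel

theorem sg_in {a : B3} {i : Fin 3} {g : P3} (h : In (a i) g) (j : Fin 3) : In (a j) (sg i g j) := by
  by_cases e : j = i
  · subst e; simpa using h
  · exact .inl (sg_of_ne e _)

theorem sg_conj (g : B3) (i : Fin 3) (t : P3) : g * sg i t = sg i (g i * t * (g i)⁻¹) * g := funext fun j => by
  by_cases e : j = i
  · subst e; simp
  · simp [e]

theorem sg_comm {g : B3} {i : Fin 3} {t : P3} (h : g i * t = t * g i) : g * sg i t = sg i t * g := by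
  rw [sg_conj, h, mul_inv_cancel_right]

theorem sg_ne {i : Fin 3} {t : P3} (h : t ≠ 1) : sg i t ≠ 1 := fun e => h (by simpa using congrFun e i)

theorem sg_prod (g : B3) : g = sg 0 (g 0) * sg 1 (g 1) * sg 2 (g 2) := funext fun j => by
  fin_cases j <;> simp

theorem sylow {A : Subgroup B3} (h : ∀ b ∈ A, b * b = 1) : Nat.card A ≤ 8 ∧
    (8 ≤ Nat.card A → ∃ a : B3, (∀ i, Iv (a i)) ∧ ∀ b, b ∈ A ↔ ∀ i, In (a i) (b i)) := by
  have : ∀ i, ∃ a, Iv a ∧ ∀ b ∈ A, In a (b i) := fun i => by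
    by_cases k : ∃ c ∈ A, c i ≠ 1
    · obtain ⟨c, hc, k⟩ := k
      have := And.intro k (congrFun (h c hc) i)
      exact ⟨_, this, fun b hb => p_in _ _ this (congrFun (h b hb) i) (congrFun (h _ (mul_mem hc hb)) i)⟩
    · exact ⟨Equiv.swap 0 1, by decide, fun b hb => .inl (by_contra fun e => k ⟨b, hb, e⟩)⟩
  choose a h1 h2 using this
  have c : Set.ncard {b : B3 | ∀ i, In (a i) (b i)} = 8 := by
    rw [← Nat.card_coe_set_eq]
    refine (Nat.card_congr Equiv.subtypePiEquivPi).trans ?_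
    rw [Nat.card_pi, Finset.prod_congr rfl fun i _ => show Nat.card {g // In (a i) g} = 2 from
      (Nat.card_coe_set_eq ({1, a i} : Set P3)).trans (Set.ncard_pair (h1 i).1.symm)]
    rfl
  have s : (A : Set B3) ⊆ {b : B3 | ∀ i, In (a i) (b i)} := fun b hb i => h2 i b hb
  exact ⟨c ▸ Set.ncard_le_ncard s, fun k => ⟨a, h1, Set.ext_iff.1 (Set.eq_of_subset_of_ncard_le s (c ▸ k))⟩⟩

variable {V : Type*} [AddCommGroup V] [Module (ZMod 2) V] {q : QuadraticForm (ZMod 2) V} {μ : B3 →* O q} {a b g : B3}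
  {w0 v : V} {i j : Fin 3} {t : P3}

theorem μ_mul (g h : B3) (v : V) : (μ (g * h)).1 v = (μ g).1 ((μ h).1 v) := by rw [map_mul]; rfl
theorem μ_one (v : V) : (μ 1).1 v = v := by rw [map_one]; rfl
theorem μ_sq (i : Fin 3) (t : P3) (v : V) : (μ (sg i (t * t))).1 v = (μ (sg i t)).1 ((μ (sg i t)).1 v) := by
  rw [← μ_mul, ← sg_mul]
theorem μ_comm {h : B3} (e : g * h = h * g) (v : V) : (μ g).1 ((μ h).1 v) = (μ h).1 ((μ g).1 v) := by
  rw [← μ_mul, e, μ_mul]
theorem μ_inv (h : Iv (b i)) (ht : Th t) (v : V) :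
    (μ b).1 ((μ (sg i t)).1 v) = (μ (sg i t)).1 ((μ (sg i t)).1 ((μ b).1 v)) := by
  rw [← μ_mul, sg_conj, p_inv _ _ h ht, μ_mul, μ_sq]
theorem iv_sg (h : Iv t) : Iv (sg i t i) := by rwa [sg_same]
theorem sg_sg (h : i ≠ j) (s t : P3) : sg i s * sg j t = sg j t * sg i s := sg_comm (by simp [h.symm])

variable (μ) in
/-- The elements of order three in the factors act without fixed points. -/
def Fp : Prop := ∀ i t, Th t → ∀ v, (μ (sg i t)).1 ((μ (sg i t)).1 v) = (μ (sg i t)).1 v + v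

theorem Fp.sm (h : Fp μ) (hb : Iv (b i)) (ht : Th t) (e : (μ b).1 v = v) :
    (μ b).1 ((μ (sg i t)).1 v) + (μ (sg i t)).1 v = v := by
  rw [μ_inv hb ht, e, h i t ht, add_right_comm, vadd_self, zero_add]

theorem Fp.fix (h : Fp μ) (ht : Th t) (e : (μ (sg i t)).1 v = v) : v = 0 := by
  simpa [e] using h i t ht v

variable (μ a w0) in
/-- The tensor module with a pure tensor `w0`. -/
structure MS : Prop where
  iv : ∀ i, Iv (a i)
  ne : w0 ≠ 0
  stab : ∀ g, (μ g).1 w0 = w0 ↔ ∀ i, In (a i) (g i)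
  fp : Fp μ
  fix : ∀ v, (∀ i, (μ (sg i (a i))).1 v = v) → v = 0 ∨ v = w0
  pol : ∀ g, polar q w0 ((μ g).1 w0) = 0 ↔ ∃ i, In (a i) (g i)
  span : ∀ U : Submodule (ZMod 2) V, w0 ∈ U → (∀ g, ∀ v ∈ U, (μ g).1 v ∈ U) → ∀ v, v ∈ U

theorem ms_of [Finite V] (nd : ND q) {W : Submodule (ZMod 2) V} (iv : ∀ i, Iv (a i)) (h0 : w0 ≠ 0) (hw : w0 ∈ W)
    (pp : ∀ v, (∀ u ∈ W, polar q u v = 0) → v ∈ W) (stab : ∀ g, (μ g).1 w0 = w0 ↔ ∀ i, In (a i) (g i))
    (mv : ∀ b : B3, (∀ i, In (a i) (b i)) → ∀ u ∈ W, (μ b).1 u = u ∨ (μ b).1 u = u + w0)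
    (fa : ∀ b : B3, (∀ i, In (a i) (b i)) → (∀ u ∈ W, (μ b).1 u = u) → b = 1)
    (fx : ∀ u ∈ W, (∀ i, (μ (sg i (a i))).1 u = u) → u = 0 ∨ u = w0) :
    MS μ a w0 ∧ ∀ i g, (μ (sg i g)).1 w0 ∈ W := by
  have s : ∀ i j, In (a j) (sg i (a i) j) := fun i => sg_in (.inr rfl)
  have f0 : ∀ i, (μ (sg i (a i))).1 w0 = w0 := fun i => (stab _).2 (s i)
  have c2 : ∀ i (g : B3), In (a i) (g i) → ∀ v, (μ (sg i (a i))).1 v = v → polar q v ((μ g).1 w0) = 0 := by
    intro i g hg v hv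
    obtain ⟨u, hu, e⟩ : ∃ u ∈ W, (μ (sg i (a i))).1 u ≠ u := by
      by_contra! k
      exact sg_ne (iv i).1 (fa _ (s i) k)
    rw [← vadd_cancel u w0, ← (mv _ (s i) u hu).resolve_left e, map_add, μ_comm (sg_comm hg.comm), add_comm]
    exact polar_fix _ hv _
  have c4 : ∀ i k, i ≠ k → ∀ x, (∀ v, (μ (sg i (a i))).1 v = v → polar q v x = 0) →
      (∀ v, (μ (sg k (a k))).1 v = v → polar q v x = 0) → x ∈ W := fun i k n x h1 h2 => pp x fun u hu => by
    obtain ⟨u', hu', e⟩ : ∃ u ∈ W, (μ (sg i (a i) * sg k (a k))).1 u ≠ u := by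
      by_contra! e
      exact (iv i).1 (by simpa [n] using congrFun (fa _ (fun j => In.mul (iv j) (s i j) (s k j)) e) i)
    rw [μ_mul] at e
    rcases mv _ (s i) u hu with e1 | e1
    · exact h1 u e1
    rcases mv _ (s k) u hu with e2 | e2
    · exact h2 u e2
    rw [← vadd_cancel' u u', polar_add_left]
    rcases mv _ (s i) u' hu' with e3 | e3 <;> rcases mv _ (s k) u' hu' with e4 | e4
    · exact absurd (by rw [e4, e3]) e
    · rw [h1 _ e3, h2 _ (by rw [map_add, e2, e4, add_add_add_comm, vadd_self, add_zero]), add_zero]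
    · rw [h2 _ e4, h1 _ (by rw [map_add, e1, e3, add_add_add_comm, vadd_self, add_zero]), add_zero]
    · exact absurd (by rw [e4, map_add, e3, f0, vadd_cancel']) e
  have Wm : ∀ i g, (μ (sg i g)).1 w0 ∈ W := fun i g => by
    obtain ⟨j, k, n, n1, n2⟩ := (by decide : ∀ i : Fin 3, ∃ j k, j ≠ k ∧ j ≠ i ∧ k ≠ i) i
    exact c4 j k n _ (c2 j _ (.inl (sg_of_ne n1 _))) (c2 k _ (.inl (sg_of_ne n2 _)))
  have nf : ∀ i t, Th t → (μ (sg i t)).1 w0 ≠ w0 := fun i t ht e =>
    p_th _ _ (iv i) ht (by simpa using (stab _).1 e i)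
  have p0 : ∀ i t, Th t → (μ (sg i t)).1 ((μ (sg i t)).1 w0) = (μ (sg i t)).1 w0 + w0 := fun i t ht => by
    rcases fx _ (add_mem (add_mem (Wm i (t * t)) (Wm i t)) hw) (fun j => by
      by_cases e : j = i
      · subst e
        rw [map_add, map_add, f0, μ_sq, μ_inv (iv_sg (iv j)) ht, μ_inv (iv_sg (iv j)) ht, f0, ← μ_sq, ← μ_mul,
          ← μ_mul, ← sg_mul, ← sg_mul, ht.2, one_mul, add_comm ((μ _).1 w0)]
      · rw [map_add, map_add, μ_comm (sg_sg e _ _), μ_comm (sg_sg e _ _), f0]) with e | e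
    · rwa [add_assoc, vadd_eq_zero, μ_sq] at e
    · rw [add_eq_right, vadd_eq_zero, μ_sq] at e
      exact absurd ((μ _).1.injective e) (nf i t ht)
  have span : ∀ U : Submodule (ZMod 2) V, w0 ∈ U → (∀ g, ∀ v ∈ U, (μ g).1 v ∈ U) → ∀ v, v ∈ U := by
    intro U h1 h2
    have k : ∀ J : Finset (Fin 3), ∀ u ∈ W, (∀ i ∉ J, (μ (sg i (a i))).1 u = u) → u ∈ U := fun J => by
      induction J using Finset.induction_on with
      | empty => exact fun u hu h => (fx u hu fun i => h i (by simp)).elim (· ▸ zero_mem _) (· ▸ h1)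
      | insert j J _ ih =>
        intro u hu h
        rcases mv _ (s j) u hu with e | e
        · exact ih u hu fun i hi => if k : i = j then k ▸ e else h i (by simp [k, hi])
        refine (U.add_mem_iff_left (h2 (sg j t3) _ h1)).1 (ih _ (add_mem hu (Wm _ _)) fun i hi => ?_)
        by_cases k : i = j
        · subst k
          rw [map_add, e, μ_inv (iv_sg (iv i)) th3, f0, p0 _ _ th3, add_add_add_comm, vadd_self, add_zero]
        · rw [map_add, h i (by simp [k, hi]), μ_comm (sg_sg k _ _), f0]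
    have k1 : perp q U ≤ W := fun x hx => pp x fun u hu => mem_perp.1 hx u (k .univ u hu (by simp))
    have k2 : ∀ g, ∀ x ∈ perp q U, (μ g).1 x ∈ perp q U := fun g x hx => mem_perp.2 fun u hu => by
      rw [O.polar_right, ← map_inv]; exact mem_perp.1 hx _ (h2 _ _ hu)
    intro v
    rw [← perp_perp nd U]
    refine mem_perp.2 fun x hx => by_contra fun n => ?_
    have x0 : w0 ∈ perp q U := by
      by_cases e : ∀ i, (μ (sg i (a i))).1 x = x
      · exact (fx x (k1 hx) e).elim (fun e => absurd (by simp [e]) n) (· ▸ hx)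
      obtain ⟨i, e⟩ := not_forall.1 e
      exact ((perp q U).add_mem_iff_right hx).1 ((mv _ (s i) x (k1 hx)).resolve_left e ▸ k2 _ _ hx)
    have := mv _ (s 0) _ (k1 (k2 (sg 1 t3) _ (k2 (sg 0 t3) _ x0)))
    rw [μ_comm (sg_sg (by decide) _ _), μ_inv (iv_sg (iv 0)) th3, f0, p0 _ _ th3, map_add, add_eq_left,
      add_right_inj] at this
    exact this.elim (O.apply_ne_zero _ h0) (nf _ _ th3)
  have fp : Fp μ := fun i t ht v => span ⟨⟨⟨{v | ∀ t, Th t → (μ (sg i t)).1 ((μ (sg i t)).1 v) = (μ (sg i t)).1 v + v},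
    fun h h' t ht => by rw [map_add, map_add, h t ht, h' t ht, add_add_add_comm]⟩, by simp⟩,
    fun c v h t ht => by rw [map_smul, map_smul, h t ht, smul_add]⟩ (p0 i) (fun g v h t ht => by
      have e : ∀ v, (μ (sg i t)).1 ((μ g).1 v) = (μ g).1 ((μ (sg i ((g i)⁻¹ * t * g i))).1 v) := fun v => by
        rw [← μ_mul g, sg_conj, μ_mul]; simp [mul_assoc]
      rw [e, e, h _ (p_cj _ _ ht), map_add]) v t ht
  refine ⟨⟨iv, h0, stab, fp, fun v h => fx v (c4 0 1 (by decide) v (fun u hu => ?_) fun u hu => ?_) h,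
    fun g => ⟨fun e => by_contra fun n => h0 (nd.eq_zero fun v => ?_), fun ⟨i, h⟩ => c2 i g h _ (f0 i)⟩, span⟩, Wm⟩
  · exact fp.sm (iv_sg (iv 0)) th3 (h 0) ▸ polar_fix _ hu _
  · exact fp.sm (iv_sg (iv 1)) th3 (h 1) ▸ polar_fix _ hu _
  refine μ_one (μ := μ) v ▸ span ⟨⟨⟨{v | ∀ g, polar q w0 ((μ g).1 v) = 0},
    fun h h' g => by rw [map_add, polar_add_right, h g, h' g, add_zero]⟩, by simp⟩,
    fun c v h g => by rw [map_smul, polar_smul_right, h g, smul_zero]⟩ (fun g' => by_contra fun n' => ?_)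
    (fun g v h g' => μ_mul g' g v ▸ h _) v 1
  choose b h1 h2 h3 using fun i => p_dc _ (g i) (g' i) (iv i) (fun k => n ⟨i, k⟩) fun k => n' (c2 i g' k _ (f0 i))
  rw [show g' = (fun i => (b i).1) * g * fun i => (b i).2 from funext h3, μ_mul, μ_mul, (stab _).2 h2,
    O.polar_right, ← map_inv, (stab (fun i => (b i).1)⁻¹).2 fun i => (h1 i).inv (iv i)] at n'
  exact n' e

end Cfsg.Lib.O8
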