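import Cfsg.Agent.Lib.O8.Thr
import Cfsg.Agent.Lib.O8.St

/-!
# Involution centralizers `2^{1+8}.(S₃ × S₃ × S₃)`: the Steinberg relations
-/

set_option autoImplicit false

namespace Cfsg.Lib.O8

open Subgroup QuadraticMap Cfsg.Lib.ES Cfsg.Lib.Orth Cfsg.Lib.U6 Function

variable {G : Type*} [Group G]

theorem rel_swap {x y k : G} (hx : x * x = 1) (hy : y * y = 1) (hk : k * k = 1) (h : y * x = x * y * k) :
    x * y = y * x * k := by
  have e : ∀ {x : G}, x * x = 1 → x⁻¹ = x := inv_eq_of_mul_eq_one_right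
  rw [← e hk, ← inv_mul_eq_iff_eq_mul.2 h, mul_inv_rev, mul_inv_rev, inv_inv, e hx, e hy, ← mul_assoc, ← mul_assoc,
    ← mul_assoc, mul_assoc y x x, hx, mul_one, hy, one_mul]

theorem rel_base {a s w : G} (aa : a * a = 1) (ww : w * w = 1) (cw : Commute a w) (inv : a * s * a⁻¹ = s⁻¹)
    (cube : s ^ 3 = 1) (k : s⁻¹ * w * s * (s * w * s⁻¹) * w = 1) : w * (s * a) = s * a * w * (s⁻¹ * w * s) := by
  have e := inv_eq_of_mul_eq_one_right ww
  have h1 : s * w * s⁻¹ * (s⁻¹ * w * s) = w := by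
    have := congrArg (·⁻¹) (eq_inv_of_mul_eq_one_left k)
    simpa only [mul_inv_rev, inv_inv, e, mul_assoc] using this
  have h3 : a * s = s⁻¹ * a := mul_inv_eq_iff_eq_mul.1 inv
  have h2 : a * s⁻¹ = s * a := by rw [← inv, ← mul_assoc, ← mul_assoc, aa, one_mul, inv_eq_of_mul_eq_one_right aa]
  have h4 : s⁻¹ = s * s := inv_eq_of_mul_eq_one_right (by rw [← cube, pow_three])
  calc _ = s * w * s⁻¹ * (s⁻¹ * w * s) * s * a := by rw [h1, mul_assoc]
    _ = s * w * (s * s)⁻¹ * w * (s * s) * a := by simp only [mul_inv_rev, mul_assoc]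
    _ = s * w * s * (w * a) * s := by rw [← h4, inv_inv, mul_assoc _ s⁻¹, ← h3]; simp only [mul_assoc]
    _ = s * w * (a * s⁻¹) * w * s := by rw [← cw.eq, h2]; simp only [mul_assoc]
    _ = _ := by rw [mul_assoc s a w, cw.eq]; simp only [mul_assoc]

theorem ite_cm {x y : G} (h : Commute x y) (b c : Bool) : Commute (if b then x else 1) (if c then y else 1) := by
  split_ifs
  exacts [h, .one_right _, .one_left _, .one_left _]

section

variable {n : Fin 4 → G} (hn : ∀ i j, Commute (n i) (n j))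

/-- The product of some members of a commuting family. -/
def NN (hn : ∀ i j, Commute (n i) (n j)) (J : Finset (Fin 4)) (s : Fin 4 → Bool) : G :=
  J.noncommProd (fun i => if s i then n i else 1) fun i _ j _ _ => ite_cm (hn i j) _ _

theorem NN_ind {P : G → Prop} (h1 : P 1) (h2 : ∀ x y, P x → P y → P (x * y)) {J : Finset (Fin 4)} {s : Fin 4 → Bool}
    (h : ∀ i ∈ J, s i = true → P (n i)) : P (NN hn J s) :=
  Finset.noncommProd_induction _ _ _ P h2 h1 fun i hi => by
    split_ifs with k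
    exacts [h i hi k, h1]

theorem NN_erase (s : Fin 4 → Bool) (i : Fin 4) :
    NN hn .univ s = (if s i then n i else 1) * NN hn (Finset.univ.erase i) s :=
  (Finset.mul_noncommProd_erase _ (Finset.mem_univ i) _ _).symm

theorem NN_mul (h2 : ∀ i, n i * n i = 1) (s t : Fin 4 → Bool) :
    NN hn .univ s * NN hn .univ t = NN hn .univ fun i => xor (s i) (t i) := by
  refine (Finset.noncommProd_mul_distrib _ _ _ _ fun i _ j _ _ => ite_cm (hn i j) _ _).symm.trans
    (Finset.noncommProd_congr rfl (fun i _ => ?_) _)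
  rcases hs : s i <;> rcases ht : t i <;> simp [hs, ht, h2]

theorem NN_single (i : Fin 4) : NN hn .univ (fun j => decide (j = i)) = n i := by
  rw [NN_erase hn _ i, NN_ind hn (P := (· = 1)) rfl (fun x y a b => by rw [a, b, one_mul])
    fun j hj h => absurd (of_decide_eq_true h) (Finset.ne_of_mem_erase hj)]
  simp

theorem NN_zero : NN hn .univ (fun _ => false) = 1 :=
  NN_ind hn (P := (· = 1)) rfl (fun x y a b => by rw [a, b, one_mul]) fun _ _ h => by cases h

end

variable {V : Type*} [AddCommGroup V] [Module (ZMod 2) V] {q : QuadraticForm (ZMod 2) V}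
  {μ : B3 →* O q} {w t : G} {R : Subgroup G} {a σ : Fin 4 → G} {Q : Fin 4 → Subgroup G}

theorem p_nin : ∀ a t : P3, Iv a → Th t → ¬In a (a * t) := by decide +kernel

namespace Cf

variable (C : Cf μ w R a Q) {i j k : Fin 4}
include C

theorem cw (i : Fin 4) : Commute (a i) w := (C.pr i).comm

theorem three (h : Gd a i t) : t⁻¹ * w * t * (t * w * t⁻¹) * w = 1 := by
  have k : ∀ j, i ≠ j → t⁻¹ * w * t * (t * w * t⁻¹) * w = 1 ∨ t⁻¹ * w * t * (t * w * t⁻¹) * w = a j := fun j n => by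
    obtain ⟨τ, m, e⟩ := C.la_gd h n
    have c := h.cm j n.symm
    have b := (C.pr j).mem_l
    have b1 := (C.D j).conj_mem c b
    have b2 := (C.D j).conj_mem c b1
    have e' : t⁻¹ * w * t = t * (t * w * t⁻¹) * t⁻¹ := by
      rw [show t * (t * w * t⁻¹) * t⁻¹ = t⁻¹ * t ^ 3 * w * (t ^ 3)⁻¹ * t by
        rw [pow_three]; group, h.cube]; group
    rw [e']
    refine ((C.D j).π_eq_zero (mul_mem (mul_mem b2 b1) b)).1 ?_
    rw [(C.D j).π_mul (mul_mem b2 b1) b, (C.D j).π_mul b2 b1, (C.D j).π_cj c b1, (C.D j).π_cj c b, e, C.fp _ _ m,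
      add_right_comm _ _ ((μ _).1 _), vadd_self, zero_add, vadd_self]
  obtain ⟨j, l, n1, n2, n3⟩ := (by decide : ∀ i : Fin 4, ∃ j l, i ≠ j ∧ i ≠ l ∧ j ≠ l) i
  refine (k j n1).resolve_right fun e => (k l n2).elim (fun e' => (C.D j).z_ne (e ▸ e')) fun e' => ?_
  have := (C.la n1.symm).symm.trans ((congrArg _ (e.symm.trans e')).trans (C.la n2.symm))
  exact ((C.ms i).iv _).1 (by simpa [mt (C.inj n1.symm n2.symm) n3] using congrFun this (C.κ i j))

theorem exists_psi (h : ∀ i, Gd a i (σ i)) (hσ : ∀ i j, Commute (σ i) (σ j)) :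
    ∃ ψ : Omega (ZMod 2) (quadFormPlus 4 (ZMod 2)) →* G, (∀ i, a i ∈ ψ.range) ∧ (∀ i, σ i ∈ ψ.range) ∧ w ∈ ψ.range ∧
      ∃ y ∈ ψ.range, y * a 0 * y⁻¹ = a 0 * w := by
  have aa : ∀ i, a i * a i = 1 := fun i => (C.D i).zz
  have ww : w * w = 1 := (C.pr 0).r.mul_self
  have an : ∀ {i j}, j ≠ i → Commute (a j) (a i * σ i) := fun {i j} n => (C.cm j i).mul_right ((h i).cm j n)
  have hn : ∀ i j, Commute (a i * σ i) (a j * σ j) := fun i j => if n : i = j then n ▸ .refl _ else
    (an n).mul_left (((h i).cm j (Ne.symm n)).symm.mul_right (hσ i j))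
  have ai : ∀ i, (a i)⁻¹ = a i := fun i => inv_eq_of_mul_eq_one_right (aa i)
  have n2 : ∀ i, a i * σ i * (a i * σ i) = 1 := fun i => by
    rw [← mul_assoc]; nth_rw 2 [← ai i]; rw [(h i).inv, inv_mul_cancel]
  have e1 : ∀ i, a i * σ i * a i * (a i * σ i)⁻¹ = σ i * a i := fun i => by
    nth_rw 2 [← ai i]
    rw [(h i).inv, ← one_mul (_ * _⁻¹), ← (h i).cube, mul_inv_rev, ai]; group
  have e2 : ∀ i, a i * σ i * w * (a i * σ i)⁻¹ = (σ i)⁻¹ * w * σ i := fun i => by
    rw [mul_inv_eq_iff_eq_mul.1 (h i).inv, mul_assoc _ (a i), (C.cw i).eq]; group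
  let N := NN hn .univ
  let A : Fin 4 × Bool → G := fun p => if p.2 then a p.1 * σ p.1 * a p.1 * (a p.1 * σ p.1)⁻¹ else a p.1
  let Y : (Fin 4 → Bool) → G := fun s => N s * w * (N s)⁻¹
  have cY : ∀ u s, N u * Y s * (N u)⁻¹ = Y fun i => xor (u i) (s i) := fun u s => by
    simp only [Y, N, ← NN_mul hn n2]; group
  have cA : ∀ u i b, N u * A (i, b) * (N u)⁻¹ = A (i, xor (u i) b) := fun u i b => by
    have c1 : Commute (NN hn (Finset.univ.erase i) u) (a i) := NN_ind hn (P := (Commute · _)) (.one_left _)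
      (fun _ _ => .mul_left) fun j hj _ => (an (Finset.ne_of_mem_erase hj).symm).symm
    have c2 : Commute (NN hn (Finset.univ.erase i) u) (a i * σ i) := NN_ind hn (P := (Commute · _)) (.one_left _)
      (fun _ _ => .mul_left) fun j _ _ => hn j i
    have c3 : Commute (NN hn (Finset.univ.erase i) u) (A (i, b)) := by
      cases b
      exacts [c1, (c2.mul_right c1).mul_right c2.inv_right]
    simp only [N]
    rw [NN_erase hn u i, mul_assoc _ _ (A _), c3.eq, mul_inv_rev, ← mul_assoc, ← mul_assoc, mul_inv_cancel_right]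
    rcases u i <;> rcases b
    iterate 3 simp [A]
    simp only [A, if_true, ← mul_assoc, Bool.xor_self]
    rw [mul_assoc _ (a i) (σ i), n2, mul_assoc, ← mul_inv_rev, n2]
    simp
  have Y0 : Y (fun _ => false) = w := by simp [Y, N, NN_zero]
  have YA : ∀ r : Ix, r.elim A Y * r.elim A Y = 1 := by
    rintro (⟨i, _ | _⟩ | s)
    exacts [aa i, by simp only [A, Sum.elim_inl, if_true]; rw [conj_mul, aa]; group,
      by simp only [Y, Sum.elim_inr]; rw [conj_mul, ww]; group]
  have pol : ∀ i u, u i = false → Y u ∈ Q i ∧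
      (polar q ((C.D i).π w) ((C.D i).π (Y u)) = 0 ↔ ∃ j, j ≠ i ∧ u j = false) := fun i u hu => by
    have k : ∀ J, Commute (a i) (NN hn J u) := fun J => NN_ind hn (P := (Commute _ ·)) (.one_right _)
      (fun _ _ => .mul_right) fun j _ e => an fun e' => by simp [← e', hu] at e
    have l : ∀ j, j ≠ i → ∃ τ, Th τ ∧ (C.D i).la (a j * σ j) = sg (C.κ i j) (C.α i (C.κ i j) * τ) := fun j n =>
      let ⟨τ, m, e⟩ := C.la_gd (h j) n; ⟨τ, m, by rw [(C.D i).la_mul (C.cm i j) ((h j).cm i n.symm), e, C.la n, sg_mul]⟩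
    have k' : ∀ j, j ≠ i → (In (C.α i (C.κ i j)) ((C.D i).la (N u) (C.κ i j)) ↔ u j = false) := fun j n => by
      have := (NN_ind hn (P := fun x => Commute (a i) x ∧ (C.D i).la x (C.κ i j) = 1) (J := Finset.univ.erase j) (s := u)
        ⟨.one_right _, by rw [(C.D i).la_of_mem (one_mem _)]; rfl⟩
        (fun x y b c => ⟨b.1.mul_right c.1, by rw [(C.D i).la_mul b.1 c.1, Pi.mul_apply, b.2, c.2, one_mul]⟩)
        fun m hm e => by
          have n' : m ≠ i := fun e' => by simp [e', hu] at e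
          obtain ⟨τ, -, e⟩ := l m n'
          exact ⟨an n'.symm, by rw [e, sg_of_ne fun e => Finset.ne_of_mem_erase hm (C.inj n n' e).symm]⟩).2
      simp only [N]
      rw [NN_erase hn u j]
      rcases u j
      · simp [this, In]
      · obtain ⟨τ, m, e⟩ := l j n
        simp [(C.D i).la_mul (an n.symm) (k _), this, e, p_nin _ _ ((C.ms i).iv _) m]
    refine ⟨(C.D i).conj_mem (k _) (C.pr i).mem_l, ?_⟩
    rw [(C.D i).π_cj (k _) (C.pr i).mem_l, (C.ms i).pol]
    exact ⟨fun ⟨m, e⟩ => by obtain ⟨j, n, rfl⟩ := C.κ_surj i m; exact ⟨j, n, (k' j n).1 e⟩,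
      fun ⟨j, n, e⟩ => ⟨_, (k' j n).2 e⟩⟩
  have cj : ∀ u {x y}, Commute x y → Commute (N u * x * (N u)⁻¹) (N u * y * (N u)⁻¹) := fun u _ _ h =>
    h.map (MulAut.conj (N u))
  have r2 : ∀ p s, s p.1 = p.2 → Commute (A p) (Y s) := fun p s e => by
    simpa [cA, cY, e] using cj s (show Commute (A (p.1, false)) (Y fun _ => false) from Y0 ▸ C.cw p.1)
  have r4 : ∀ s t i j, i ≠ j → s i = t i → s j = t j → Commute (Y s) (Y t) := fun s t i j n a b => by
    obtain ⟨k1, k2⟩ := pol i (fun l => xor (s l) (t l)) (by simp [a])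
    simpa [cY, ← Bool.xor_assoc] using cj s (((C.D i).comm (C.pr i).mem_l k1).2 (k2.2 ⟨j, n.symm, by simp [b]⟩))
  have cj' : ∀ u {x y k}, y * x = x * y * k →
      N u * y * (N u)⁻¹ * (N u * x * (N u)⁻¹) = N u * x * (N u)⁻¹ * (N u * y * (N u)⁻¹) * (N u * k * (N u)⁻¹) :=
    fun u _ _ _ h => by rw [conj_mul, conj_mul, conj_mul, h]
  have r3 : ∀ p s t, s p.1 ≠ p.2 → (∀ j, t j = update s p.1 p.2 j) → Y s * A p = A p * Y s * Y t := by
    rintro ⟨i, b⟩ s t n e
    have : Y (fun _ => false) * A (i, true) = A (i, true) * Y (fun _ => false) * Y fun j => decide (j = i) := by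
      simp only [Y0, A, if_true, e1]
      simp only [Y, N, NN_single, e2]
      exact rel_base (aa i) ww (C.cw i) (h i).inv (h i).cube (C.three (h i))
    have := cj' s this
    obtain rfl : b = (s i ^^ true) := by revert n; cases s i <;> cases b <;> simp
    rw [cA, cY, cY] at this
    convert this using 3 with j
    · simp
    · simp
    · funext j
      rw [e j]
      by_cases m : j = i
      · subst m; simp
      · simp [m]
  have r5 : ∀ s t p, s p.1 = p.2 → t p.1 = p.2 → (∀ j, j ≠ p.1 → s j ≠ t j) → Y t * Y s = Y s * Y t * A p := by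
    rintro s t ⟨i, b⟩ e e' n
    obtain ⟨k1, k2⟩ := pol i (fun l => xor (s l) (t l)) (by simp [e, e'])
    have := (C.D i).conj_eq_of_not k1 (C.pr i).mem_l (by
      rw [polar_comm, Ne, k2]
      rintro ⟨j, m, e⟩
      exact n j m (by simpa using e))
    rw [mul_inv_eq_iff_eq_mul, mul_assoc w, ((C.D i).cz k1).eq, ← mul_assoc] at this
    obtain rfl : s i = b := e
    simpa [cY, ← Bool.xor_assoc] using (cj' s this).trans (congrArg _ (cA s i false))
  obtain ⟨ψ, hψ⟩ := exists_hom (y := Sum.elim A Y) YA (by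
    rintro (⟨i, b⟩ | s) (⟨j, c⟩ | t) e
    · simpa [cA, e, Ne.symm e] using cj (fun l => if l = i then b else if l = j then c else false)
        (show Commute (A (i, false)) (A (j, false)) from C.cm i j)
    · exact r2 _ _ e
    · exact (r2 _ _ e).symm
    · exact let ⟨i, j, n, a, b⟩ := e; r4 s t i j n a b) (by
    rintro (p | s) (p' | t) (k | k) e
    any_goals cases e
    · exact r3 _ _ _ ‹_› ‹_›
    · exact rel_swap (YA (.inl _)) (YA (.inr _)) (YA (.inr _)) (r3 _ _ _ ‹_› ‹_›)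
    · exact r5 _ _ _ ‹_› (‹_ ∧ _›).1 (‹_ ∧ _›).2)
  have m := fun i => hψ (.inl (i, false))
  refine ⟨ψ, m, fun i => (mul_mem_cancel_right (m i)).1 (e1 i ▸ hψ (.inl (i, true))), Y0 ▸ hψ (.inr _),
    Y fun j => decide (j = 0), hψ (.inr _), ?_⟩
  rw [show _ * a 0 = _ from r3 (0, false) _ (fun _ => false) (by simp) (fun j => by by_cases m : j = 0 <;> simp [m]), mul_assoc (A _),
    (r4 (fun j => decide (j = 0)) (fun _ => false) 1 2 (by decide) rfl rfl).eq, Y0, ← mul_assoc,
    mul_inv_cancel_right]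
  rfl

end Cf

end Cfsg.Lib.O8
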