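import Cfsg.Agent.Lib.O8.Loc

/-!
# Involution centralizers `2^{1+8}.(S₃ × S₃ × S₃)`: four commuting subgroups `S₃`
-/

set_option autoImplicit false

namespace Cfsg.Lib.O8

open Subgroup QuadraticMap Cfsg.Lib.ES Cfsg.Lib.Orth Cfsg.Lib.U6

variable {G : Type*} [Group G] {V : Type*} [AddCommGroup V] [Module (ZMod 2) V] {q : QuadraticForm (ZMod 2) V}
  {μ : B3 →* O q} {z w b c c' x y t t' t'' : G} {Q R : Subgroup G} {α g : B3} {τ : P3}

theorem p_inv' : ∀ a t : P3, Iv a → Th t → a * t * a⁻¹ = t⁻¹ ∧ a * t⁻¹ * a⁻¹ = t := by decide +kernel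
theorem sg_inv (i : Fin 3) (g : P3) : (sg i g)⁻¹ = sg i g⁻¹ :=
  inv_eq_of_mul_eq_one_right (by rw [← sg_mul, mul_inv_cancel, sg_one])
theorem sg_cube {i : Fin 3} (h : Th τ) : sg i τ ^ 3 = 1 := by rw [pow_three', ← sg_mul, ← sg_mul, h.2, sg_one]

namespace SD

variable (D : SD μ z Q) {i : Fin 3}

theorem la_pow (h : Commute z c) (n : ℕ) : D.la (c ^ n) = D.la c ^ n :=
  D.inj (by rw [map_pow, D.μ_la h, D.μ_la (h.pow_right n), D.ρ_pow h])

include D in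
theorem pow_four (hx : x ∈ Q) : x ^ 4 = 1 := by
  rcases D.lg.mem_iff.1 (D.lg.sq_mem x hx) with e | e <;> rw [show 4 = 2 * 2 from rfl, pow_mul, e]
  exacts [one_pow _, (sq z).trans D.zz]

theorem cube (h : Commute z c) (e : D.la c ^ 3 = 1) : (c ^ 4) ^ 3 = 1 ∧ D.la (c ^ 4) = D.la c :=
  ⟨by rw [← pow_mul, mul_comm, pow_mul]; exact D.pow_four ((D.la_eq_one (h.pow_right 3)).1 (D.la_pow h 3 ▸ e)),
    by rw [D.la_pow h, pow_succ, e, one_mul]⟩

include D in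
theorem eq_of_cube (h : Commute z c) (h1 : c ^ 3 = 1) (h2 : c' ^ 3 = 1) (e : c' = c ∨ c' = c * z) : c' = c :=
  e.resolve_right fun e => D.z_ne (by
    rwa [e, h.symm.mul_pow, h1, one_mul, pow_three, D.zz, mul_one] at h2)

theorem cj_eq (h : Commute z t) (hx : x ∈ Q) (hy : y ∈ Q) (e : D.π x = D.π y) : x * t * x⁻¹ = y * t * y⁻¹ := by
  rcases (D.π_eq_iff hx hy).1 e with rfl | rfl
  · rfl
  · rw [mul_assoc x z, h.eq]; group

variable (fp : Fp μ) (ht : Commute z t) (hτ : Th τ) (e : D.la t = sg i τ)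
include fp ht hτ e

theorem cen_Q (hx : x ∈ Q) (h : Commute t x) : D.π x = 0 :=
  fp.fix (i := i) hτ (by rw [← e, D.μ_la ht]; exact D.fix_of_commute ht hx h)

theorem π_eq_of (hx : x ∈ Q) (hy : y ∈ Q) (h : x * t * x⁻¹ = y * t * y⁻¹) : D.π x = D.π y := by
  rw [← vadd_eq_zero, add_comm, ← D.π_inv hy, ← D.π_mul (inv_mem hy) hx]
  refine D.cen_Q fp ht hτ e (mul_mem (inv_mem hy) hx) ?_
  rw [commute_iff_eq, ← mul_right_inj y, ← mul_assoc, ← mul_assoc, ← h]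
  group

theorem conj_of (h3 : t ^ 3 = 1) (ht' : Commute z t') (h3' : t' ^ 3 = 1) (e' : D.la t' = sg i τ) :
    ∃ x ∈ Q, x * t * x⁻¹ = t' := by
  have m := D.mem_of_la ht' ht (e'.trans e.symm)
  obtain ⟨x, hx, k⟩ := D.π_surj ((μ (sg i τ)).1 (D.π (t' * t⁻¹)))
  have c := ((D.cz hx).mul_right ht).mul_right (D.cz hx).inv_right
  refine ⟨x, hx, (D.eq_of_cube c (by rw [conj_pow, h3]; group) h3' ?_).symm⟩
  refine ((D.π_eq_iff ((D.la_eq_one (c.mul_right ht.inv_right)).1 ?_) m).1 ?_).imp mul_right_cancel fun k => ?_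
  · rw [D.la_mul c ht.inv_right, D.la_conj (D.cz hx) ht, D.la_of_mem hx, D.la_inv ht]; group
  · rw [D.π_c ht hx, ← D.μ_la ht, e, k, fp i τ hτ, add_right_comm, vadd_self, zero_add]
  · rw [mul_assoc _ _ z, ← ht.inv_right.eq, ← mul_assoc] at k
    exact mul_right_cancel k

theorem uniq (hc : Commute z c) (hc' : Commute z c') (h : Commute t c) (h' : Commute t c') (h3 : c ^ 3 = 1)
    (h3' : c' ^ 3 = 1) (k : D.la c' = D.la c) : c' = c := by
  have m := D.mem_of_la hc' hc k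
  refine D.eq_of_cube hc h3 h3' (((D.π_eq_zero m).1 (D.cen_Q fp ht hτ e m (h'.mul_right h.inv_right))).imp
    mul_inv_eq_one.1 fun k => (mul_inv_eq_iff_eq_mul.1 k).trans hc.eq)

theorem extend (h3 : t ^ 3 = 1) (hg : g * sg i τ = sg i τ * g) (g3 : g ^ 3 = 1) :
    ∃ c, Commute z c ∧ Commute t c ∧ c ^ 3 = 1 ∧ D.la c = g := by
  obtain ⟨c, hc, rfl⟩ := D.la_surj g
  obtain ⟨x, hx, k⟩ := D.conj_of fp ht hτ e h3 ((hc.mul_right ht).mul_right hc.inv_right) (by rw [conj_pow, h3]; group)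
    (by rw [D.la_conj hc ht, e, hg, mul_inv_cancel_right])
  have a := (D.cz hx).inv_right.mul_right hc
  have b : D.la (x⁻¹ * c) = D.la c := by rw [D.la_mul (D.cz hx).inv_right hc, D.la_of_mem (inv_mem hx), one_mul]
  refine ⟨_, a.pow_right 4, Commute.pow_right ?_ 4, (D.cube a (b ▸ g3)).1, (D.cube a (b ▸ g3)).2.trans b⟩
  rw [commute_iff_eq, ← mul_right_inj x, ← mul_left_inj c⁻¹, ← mul_assoc, ← mul_assoc, mul_inv_cancel_right, k]
  group

omit ht hτ e in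
theorem exists_inv {ι : Type*} [DecidableEq ι] {b : ι → G} {κ : ι → Fin 3} (iv : ∀ i, Iv (α i)) (i : Fin 3) (J : Finset ι)
    (h1 : ∀ j ∈ J, Commute z (b j) ∧ b j * b j = 1 ∧ D.la (b j) = sg (κ j) (α (κ j)))
    (h2 : ∀ j k, Commute (b j) (b k)) (h3 : ∀ j ∈ J, ∀ k ∈ J, κ j = κ k → j = k) :
    ∃ t, t ^ 3 = 1 ∧ Commute z t ∧ D.la t = sg i t3 ∧
      ∀ j ∈ J, b j * t ^ (if κ j = i then -1 else 1 : ℤ) * (b j)⁻¹ = t := by
  induction J using Finset.induction_on with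
  | empty =>
    obtain ⟨c, hc, e⟩ := D.la_surj (sg i t3)
    exact ⟨_, (D.cube hc (e ▸ sg_cube th3)).1, hc.pow_right 4, (D.cube hc (e ▸ sg_cube th3)).2.trans e, by simp⟩
  | insert j J n ih =>
  obtain ⟨t, t3', ht, e, h⟩ := ih (fun k hk => h1 k (by simp [hk])) fun k hk l hl => h3 k (by simp [hk]) l (by simp [hl])
  obtain ⟨b1, b2, b3⟩ := h1 j (by simp)
  have cj : ∀ (c y : G) (s : ℤ), c * (y * t * y⁻¹) ^ s * c⁻¹ = c * y * c⁻¹ * (c * t ^ s * c⁻¹) * (c * y * c⁻¹)⁻¹ :=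
    fun c y s => by rw [conj_zpow]; group
  obtain ⟨x, hx, k⟩ := D.conj_of fp ht th3 e t3' (t' := b j * t ^ (if κ j = i then -1 else 1 : ℤ) * (b j)⁻¹)
    ((b1.mul_right (ht.zpow_right _)).mul_right b1.inv_right)
    (by rw [conj_pow, ← zpow_natCast, ← zpow_mul, mul_comm _ ((3 : ℕ) : ℤ), zpow_mul, zpow_natCast, t3']; group) (by
      rw [D.la_conj b1 (ht.zpow_right _), b3]
      split_ifs with k
      · rw [zpow_neg_one, D.la_inv ht, e, k, sg_inv, sg_inv, ← sg_mul, ← sg_mul, (p_inv' _ _ (iv i) th3).2]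
      · rw [zpow_one, e, sg_sg k, mul_inv_cancel_right])
  obtain ⟨y, hy, ey⟩ := D.π_surj ((μ (sg (κ j) t3)).1 (D.π x))
  refine ⟨y * t * y⁻¹, by rw [conj_pow, t3']; group, ((D.cz hy).mul_right ht).mul_right (D.cz hy).inv_right,
    by rw [D.la_conj (D.cz hy) ht, D.la_of_mem hy, e]; group, fun l hl => ?_⟩
  rcases Finset.mem_insert.1 hl with rfl | hl'
  · have m := mul_mem (D.conj_mem b1 hx) hx
    have f := D.π_eq_of fp ht th3 e m (one_mem _) (by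
      rw [show b l * x * (b l)⁻¹ * x * t * (b l * x * (b l)⁻¹ * x)⁻¹ =
        b l * x * (b l)⁻¹ * (x * t * x⁻¹) * (b l * x * (b l)⁻¹)⁻¹ by group, k, ← cj, k, conj_zpow, ← zpow_mul,
        show (if κ l = i then -1 else 1 : ℤ) * (if κ l = i then -1 else 1 : ℤ) = 1 by split_ifs <;> rfl,
        ← mul_assoc, ← mul_assoc, b2, mul_assoc, ← mul_inv_rev, b2]
      group)
    rw [D.π_mul (D.conj_mem b1 hx) hx, D.π_one, vadd_eq_zero, D.π_cj b1 hx] at f
    rw [cj, ← k, ← D.cj_eq ht (mul_mem (D.conj_mem b1 hy) hx) hy (by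
      rw [D.π_mul (D.conj_mem b1 hy) hx, D.π_cj b1 hy, ey]
      nth_rw 2 [← fp.sm (b3 ▸ iv_sg (iv _)) th3 f]
      rw [vadd_cancel])]
    group
  · obtain ⟨c1, -, c3⟩ := h1 l hl
    have f := D.π_eq_of fp ht th3 e (D.conj_mem c1 hx) hx (by
      rw [← h l hl', ← cj, h l hl', k, conj_zpow, ← zpow_mul, mul_comm (ite _ _ _), zpow_mul]
      nth_rw 2 [← h l hl']
      rw [conj_zpow, ← mul_assoc, ← mul_assoc, (h2 l j).eq, mul_assoc _ (b j)⁻¹, (h2 j l).inv_inv.eq]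
      group)
    rw [cj, h l hl']
    refine D.cj_eq ht (D.conj_mem c1 hy) hy ?_
    rw [D.π_cj c1 hx] at f
    rw [D.π_cj c1 hy, ey, c3, μ_comm (sg_sg (fun e => n (h3 l hl j (by simp) e ▸ hl')) _ _), ← c3, f]

end SD

namespace Cf

variable {a : Fin 4 → G} {Q : Fin 4 → Subgroup G} (C : Cf μ w R a Q) {i j k : Fin 4}

variable (a) in
/-- An element of order three inverted by `a i` and centralized by the other points. -/
structure Gd (i : Fin 4) (t : G) : Prop where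
  cube : t ^ 3 = 1
  ne : t ≠ 1
  inv : a i * t * (a i)⁻¹ = t⁻¹
  cm : ∀ j, j ≠ i → Commute (a j) t

include C

theorem fp : Fp μ := (C.ms 0).fp

theorem κ_surj (i : Fin 4) (l : Fin 3) : ∃ j, j ≠ i ∧ C.κ i j = l :=
  let ⟨m, e⟩ := Finite.surjective_of_injective (f := fun m => C.κ i (i.succAbove m)) (fun _ _ e =>
    Fin.succAbove_right_injective (C.inj (Fin.succAbove_ne _ _) (Fin.succAbove_ne _ _) e)) l
  ⟨_, Fin.succAbove_ne _ _, e⟩

theorem la_gd (h : Gd a j t) (n : j ≠ i) : ∃ τ, Th τ ∧ (C.D i).la t = sg (C.κ i j) τ := by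
  have c := h.cm i n.symm
  have e : ∀ l, (C.D i).la t l * (C.D i).la t l * (C.D i).la t l = 1 := fun l => by
    simpa [pow_three', (C.D i).la_of_mem (one_mem _)] using congrFun (((C.D i).la_pow c 3).symm.trans (congrArg _ h.cube)) l
  have k : (C.D i).la t = sg (C.κ i j) ((C.D i).la t (C.κ i j)) := funext fun l => by
    obtain ⟨k, n', rfl⟩ := C.κ_surj i l
    by_cases m : k = j
    · rw [m, sg_same]
    rw [sg_of_ne fun e => m (C.inj n' n e)]
    refine p_cen _ _ ((C.ms i).iv (C.κ i k)) (e _) ?_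
    simpa [C.la n'] using congrFun (((C.D i).la_mul (C.cm i k) c).symm.trans
      ((congrArg _ (h.cm k m).eq).trans ((C.D i).la_mul c (C.cm i k)))) (C.κ i k)
  refine ⟨_, ⟨fun m => h.ne ?_, e _⟩, k⟩
  simpa [pow_succ _ 3, h.cube] using (C.D i).pow_four (((C.D i).la_eq_one c).1 (by rw [k, m, sg_one]))

theorem comm_gd (h : Gd a i t) (h' : Gd a j t') (h'' : Gd a k t'') (n : i ≠ j) (c : Commute t'' t)
    (c' : Commute t'' t') : Commute t t' := by
  obtain ⟨p, p1, p2, p3⟩ := (by decide : ∀ i j k : Fin 4, ∃ p, i ≠ p ∧ j ≠ p ∧ k ≠ p) i j k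
  obtain ⟨τ, -, e⟩ := C.la_gd h p1
  obtain ⟨τ', -, e'⟩ := C.la_gd h' p2
  obtain ⟨τ'', m, e''⟩ := C.la_gd h'' p3
  have a1 := h.cm p p1.symm
  have a2 := h'.cm p p2.symm
  exact mul_inv_eq_iff_eq_mul.1 ((C.D p).uniq C.fp (h''.cm p p3.symm) m e'' a2 ((a1.mul_right a2).mul_right a1.inv_right)
    c' ((c.mul_right c').mul_right c.inv_right) h'.cube (by rw [conj_pow, h'.cube]; group) (by
      rw [(C.D p).la_conj a1 a2, e, e', sg_sg fun e => n (C.inj p1 p2 e), mul_inv_cancel_right]))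

theorem ext_gd (h : Gd a j t) (n : i ≠ j) : ∃ t', Gd a i t' ∧ Commute t t' := by
  obtain ⟨p, p1, p2⟩ := (by decide : ∀ i j : Fin 4, ∃ p, i ≠ p ∧ j ≠ p) i j
  obtain ⟨τ, m, e⟩ := C.la_gd h p2
  have a1 := h.cm p p2.symm
  obtain ⟨c, c1, c2, c3, c4⟩ := (C.D p).extend C.fp a1 m e h.cube (g := sg (C.κ p i) t3)
    (sg_sg (fun e => n (C.inj p1 p2 e)) _ _) (sg_cube th3)
  have u : ∀ k {c'}, Commute (a p) c' → Commute t c' → c' ^ 3 = 1 →
      (C.D p).la (a k) * sg (C.κ p i) t3 * ((C.D p).la (a k))⁻¹ = (C.D p).la c' → a k * c * (a k)⁻¹ = c' :=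
    fun k c' b1 b2 b3 b4 => (C.D p).uniq C.fp a1 m e b1 (((C.cm p k).mul_right c1).mul_right (C.cm p k).inv_right) b2 (by
      by_cases k' : k = j
      · simpa [k', h.inv] using (c2.map (MulAut.conj (a k))).inv_left
      · exact ((h.cm k k').symm.mul_right c2).mul_right (h.cm k k').symm.inv_right) b3 (by rw [conj_pow, c3]; group)
      (by rw [(C.D p).la_conj (C.cm p k) c1, c4, b4])
  refine ⟨c, ⟨c3, fun k => sg_ne th3.1 (by rw [← c4, k, (C.D p).la_of_mem (one_mem _)]), u i c1.inv_right c2.inv_right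
    (by rw [inv_pow, c3, inv_one]) ?_, fun k k' => ?_⟩, c2⟩
  · rw [(C.D p).la_inv c1, c4, C.la p1, sg_inv, sg_inv, ← sg_mul, ← sg_mul, (p_inv' _ _ ((C.ms p).iv _) th3).1]
  by_cases k'' : k = p
  · exact k'' ▸ c1
  · exact mul_inv_eq_iff_eq_mul.1 (u k c1 c2 c3 (by
      rw [c4, C.la k'', sg_sg fun e => k' (C.inj k'' p1 e), mul_inv_cancel_right]))

theorem exists_gd : ∃ σ : Fin 4 → G, (∀ i, Gd a i (σ i)) ∧ ∀ i j, Commute (σ i) (σ j) := by
  obtain ⟨t1, a1, a2, a3, a4⟩ := (C.D 0).exists_inv C.fp (C.ms 0).iv (C.κ 0 1) (Finset.univ.erase 0)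
    (fun j hj => ⟨C.cm 0 j, (C.D j).zz, C.la (Finset.ne_of_mem_erase hj)⟩) C.cm
    fun j hj k hk => C.inj (Finset.ne_of_mem_erase hj) (Finset.ne_of_mem_erase hk)
  have h1 : Gd a 1 t1 := ⟨a1, fun k => sg_ne th3.1 (by rw [← a3, k, (C.D 0).la_of_mem (one_mem _)]),
    by simpa [mul_assoc] using congrArg (·⁻¹) (a4 1 (by decide)), fun j n => if k : j = 0 then k ▸ a2 else
      mul_inv_eq_iff_eq_mul.1 (by simpa [mt (C.inj k (by decide)) n] using a4 j (by simp [k]))⟩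
  obtain ⟨t2, h2, c12⟩ := C.ext_gd (i := 2) h1 (by decide)
  obtain ⟨t3, h3, c13⟩ := C.ext_gd (i := 3) h1 (by decide)
  obtain ⟨t0, h0, c20⟩ := C.ext_gd (i := 0) h2 (by decide)
  have c23 := C.comm_gd h2 h3 h1 (by decide) c12 c13
  have c01 := C.comm_gd h0 h1 h2 (by decide) c20 c12.symm
  have c03 := C.comm_gd h0 h3 h2 (by decide) c20 c23
  refine ⟨![t0, t1, t2, t3], fun i => ?_, fun i j => ?_⟩
  · fin_cases i
    exacts [h0, h1, h2, h3]
  · fin_cases i <;> fin_cases j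
    exacts [.refl _, c01, c20.symm, c03, c01.symm, .refl _, c12, c13, c20, c12.symm, .refl _, c23, c03.symm, c13.symm,
      c23.symm, .refl _]

end Cf

end Cfsg.Lib.O8
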