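import Cfsg.Agent.Lib.O8.Loc

/-!
# Involution centralizers `2^{1+8}.(S₃ × S₃ × S₃)`: the weakly closed case
-/

set_option autoImplicit false

namespace Cfsg.Lib.O8

open Subgroup QuadraticMap Cfsg.Lib.ES Cfsg.Lib.Orth Cfsg.Lib.U6

variable {G : Type*} [Group G] {V : Type*} [AddCommGroup V] [Module (ZMod 2) V] {q : QuadraticForm (ZMod 2) V}
  {μ : B3 →* O q} {z u : G} {Q R : Subgroup G} {a : B3}

theorem no_wc [Finite V] (nd : ND q) (inj : Function.Injective μ) (iv : ∀ i, Iv (a i)) {W : Submodule (ZMod 2) V}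
    (hW : Nat.card W ≤ 16) (sing : ∀ v ∈ W, q v = 0) (fx : ∀ i, ∀ v ∈ W, (μ (sg i (a i))).1 v = v)
    (cm : ∀ i v, (μ (sg i (a i))).1 v + v ∈ W) : False := by
  let P : Fin 3 → V →ₗ[ZMod 2] V := fun j => (μ (sg j t3)).1.toLinearMap + (μ (sg j (t3 * t3))).1.toLinearMap
  have Pe : ∀ j v, P j v = (μ (sg j t3)).1 v + (μ (sg j t3)).1 ((μ (sg j t3)).1 v) := fun j v => by
    rw [← μ_sq]; rfl
  have c3 : ∀ j v, (μ (sg j t3)).1 ((μ (sg j t3)).1 ((μ (sg j t3)).1 v)) = v := fun j v => by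
    rw [← μ_sq, ← μ_mul, ← sg_mul, th3.2, sg_one, μ_one]
  have c2 : ∀ j v, (μ (sg j (a j))).1 ((μ (sg j (a j))).1 v) = v := fun j v => by rw [← μ_sq, (iv j).2, sg_one, μ_one]
  have iv' := fun j => μ_inv (μ := μ) (iv_sg (i := j) (iv j)) th3
  have k0 : ∀ j v, (μ (sg j (a j))).1 v = v → (μ (sg j (a j))).1 ((μ (sg j t3)).1 v) = (μ (sg j t3)).1 v →
      (μ (sg j t3)).1 v = v := fun j v h h' => (μ (sg j t3)).1.injective (by rw [iv', h] at h'; exact h')
  have k1 : ∀ i j, i ≠ j → ∀ v, (μ (sg j t3)).1 ((μ (sg i (a i))).1 v + v) = (μ (sg i (a i))).1 v + v := fun i j n v =>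
    k0 j _ (fx j _ (cm i v)) (fx j _ (by rw [map_add, ← μ_comm (sg_sg n _ _)]; exact cm i _))
  have adj : ∀ j v w, polar q v (P j w) = polar q (P j v) w := fun j v w => by
    have a := O.map_polar (μ (sg j t3)) ((μ (sg j t3)).1 v) ((μ (sg j t3)).1 ((μ (sg j t3)).1 w))
    have b := O.map_polar (μ (sg j t3)) v ((μ (sg j t3)).1 ((μ (sg j t3)).1 w))
    rw [c3] at a b
    rw [Pe, Pe, polar_add_left, polar_add_right, add_comm, a, b, O.map_polar]
  have adj' : ∀ j v w, polar q v ((μ (sg j (a j))).1 w + w) = polar q ((μ (sg j (a j))).1 v + v) w := fun j v w => by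
    rw [polar_add_left, polar_add_right, ← O.map_polar (μ (sg j (a j))) v, c2]
  have k2 : ∀ i j, i ≠ j → ∀ v, (μ (sg i (a i))).1 (P j v) = P j v := fun i j n v => vadd_eq_zero.1 (nd.eq_zero fun w => by
    rw [← adj', ← adj, Pe, k1 i j n, k1 i j n, vadd_self, polar_zero_right])
  have k3 : ∀ i j, i ≠ j → ∀ v, P i (P j v) = 0 := fun i j n v => by
    have := k0 i _ (k2 i j n v) (by
      rw [show (μ (sg i t3)).1 (P j v) = P j ((μ (sg i t3)).1 v) by
        rw [Pe, Pe, map_add, μ_comm (sg_sg n _ _), μ_comm (sg_sg n _ _), μ_comm (sg_sg n _ _)], k2 i j n])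
    rw [Pe, this, this, vadd_self]
  have k4 : ∀ j v, P j (P j v) = P j v := fun j v => by
    simp only [Pe, map_add, c3]
    rw [add_assoc, vadd_cancel, add_comm]
  have k5 : ∀ j v, (μ (sg j (a j))).1 (P j v) + P j v = P j ((μ (sg j (a j))).1 v + v) := fun j v => by
    rw [map_add, Pe, Pe j ((μ _).1 v), map_add, iv', iv', iv', c3, add_comm ((μ _).1 ((μ _).1 _))]
  have : ∀ j, ∃ s : Fin 3 → V, s.Injective ∧ ∀ c, s c ∈ W ∧ ∃ v, s c = P j v := fun j => by
    obtain ⟨x, hx⟩ : ∃ x, (μ (sg j (a j))).1 (P j x) + P j x ≠ 0 := by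
      by_contra! h
      refine sg_ne (i := j) th3.1 (inj (O.ext fun v => ?_))
      have := k0 j _ (vadd_eq_zero.1 (h v)) (by
        rw [show (μ (sg j t3)).1 (P j v) = P j ((μ (sg j t3)).1 v) by rw [Pe, Pe, map_add], vadd_eq_zero.1 (h _)])
      have e := k4 j v
      rw [Pe, this, this, vadd_self, eq_comm, Pe, vadd_eq_zero] at e
      rw [μ_one, ← (μ _).1.injective e]
    have y1 := cm j (P j x)
    have y2 : P j _ = _ := (congrArg _ (k5 j x)).trans ((k4 j _).trans (k5 j x).symm)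
    have y3 := k5 j x
    generalize (μ (sg j (a j))).1 (P j x) + P j x = y at *
    obtain ⟨v, hv⟩ := nd.exists_polar_ne hx
    have e1 : polar q ((μ (sg j t3)).1 y) y = 0 := by
      have := O.map_Q (μ (sg j t3)) ((μ (sg j t3)).1 y)
      rwa [show (μ (sg j t3)).1 ((μ (sg j t3)).1 y) = (μ (sg j t3)).1 y + y by
        nth_rw 3 [← y2]; rw [Pe, vadd_cancel], Q_add,
        sing y y1, add_zero, add_eq_left] at this
    have e2 : polar q ((μ (sg j t3)).1 y) ((μ (sg j (a j))).1 (P j v) + P j v) ≠ 0 := by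
      rwa [adj', iv', fx j y y1, add_comm, ← Pe, y2, adj, y2]
    refine ⟨![0, y, (μ (sg j (a j))).1 (P j v) + P j v], fun c c' e => ?_, fun c => ?_⟩
    · generalize (μ (sg j (a j))).1 (P j v) + P j v = y' at e e2
      have n1 : y' ≠ 0 := fun e => e2 (by rw [e, polar_zero_right])
      have n2 : y' ≠ y := fun e => e2 (by rw [e, e1])
      fin_cases c <;> fin_cases c'
      exacts [rfl, absurd e.symm hx, absurd e.symm n1, absurd e hx, rfl, absurd e.symm n2, absurd e n1, absurd e n2, rfl]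
    · fin_cases c
      exacts [⟨zero_mem _, 0, (map_zero _).symm⟩, ⟨y1, _, y3⟩, ⟨cm _ _, _, k5 _ _⟩]
  choose s h1 h2 using this
  have k : ∀ (c : Fin 3 → Fin 3) i, P i (∑ j, s j (c j)) = s i (c i) := fun c i => by
    rw [map_sum, Finset.sum_eq_single i (fun j _ n => by
      obtain ⟨v, e⟩ := (h2 j (c j)).2; rw [e, k3 i j n.symm]) (by simp)]
    obtain ⟨v, e⟩ := (h2 i (c i)).2
    rw [e, k4]
  have := Nat.card_le_card_of_injective (fun c : Fin 3 → Fin 3 => (⟨∑ j, s j (c j), sum_mem fun j _ => (h2 j (c j)).1⟩ : W))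
    fun c c' e => funext fun i => h1 i (by rw [← k, ← k]; exact congrArg _ (congrArg Subtype.val e))
  simp at this
  omega

theorem fix_eq_comm [Finite V] (nd : ND q) (hV : Nat.card V = 256) {g : O q} (gg : g * g = 1)
    (h : Nat.card (O.fix g) ≤ 16) : O.comm g = O.fix g := by
  have h1 := card_perp nd (O.fix g)
  rw [O.perp_fix nd, hV] at h1
  refine SetLike.coe_injective (Set.Finite.eq_of_subset_of_card_le (Set.toFinite _) (fun v hv => ?_)
    (show Nat.card (O.fix g) ≤ Nat.card (O.comm g) by nlinarith))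
  obtain ⟨y, rfl⟩ := O.mem_comm.1 hv
  exact O.mem_fix.2 (by rw [vsub, fix_comm gg])

namespace SD

variable [Finite G] (D : SD μ z Q) (h : Cp z Q u R)
include h

omit [Finite G] in
theorem cp_sq : ∀ g ∈ (D.img R).comap μ, g * g = 1 := fun g hg => by
  obtain ⟨r, r1, r2, rfl⟩ := D.mem_comap.1 hg
  have : r * r * (r * r) = 1 := by
    rcases h.r.mem_iff.1 (pow_two r ▸ h.r.sq_mem r r1) with e | e <;> rw [e]
    exacts [one_mul _, h.uu]
  have := (D.la_mul (r2.mul_right r2) (r2.mul_right r2)).symm.trans (this ▸ D.la_of_mem (one_mem _))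
  rw [D.la_mul r2 r2] at this
  exact funext fun i => p_four _ (congrFun this i)

omit [Finite G] in
include D in
theorem cp_le : Nat.card ↥(R ⊓ centralizer {z}) ≤ 8 * Nat.card ↥(Q ⊓ R) := by
  rw [← D.card_img_mul, ← D.card_comap]
  exact Nat.mul_le_mul_right _ (sylow (D.cp_sq h)).1

theorem cp_fix : 16 ≤ Nat.card (O.fix (D.ρ u)) := by
  have := D.finite
  have := card_le_fix D.nd (D.ρ_sq h.c (h.uu ▸ one_mem _))
  rw [D.cardV] at this
  nlinarith

variable (D' : SD μ u R)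
include D D'

theorem not_ph : ¬Ph z Q u := fun p => by
  have := D.finite
  have h1 := D.card_inf_le h p
  have h2 := D'.cp_le h.symm
  have h3 := D.card_cent h.c
  have h4 := D.cp_fix h
  rw [inf_comm R] at h2
  obtain ⟨d, hd, n⟩ := (nontrivial_iff_exists_ne_one _).1 (Finite.one_lt_card_iff_nontrivial.1
    (show 1 < Nat.card ↥(Q ⊓ R) by omega))
  obtain ⟨v, e⟩ := O.mem_comm.1 ((fix_eq_comm D.nd D.cardV (D.ρ_sq h.c (h.uu ▸ one_mem _)) (by omega)).ge
    (O.mem_fix.2 (D.fix_of_commute h.c hd.1 (h.cu hd.2))))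
  exact n (D.g1 h p hd (vsub _ v ▸ e))

theorem not_cp : False := by
  have := D.finite
  have n := D.not_ph h D'
  have h1 := D.card_cent' h.c n
  have h2 := D'.card_cent' h.symm.c (D'.not_ph h.symm D)
  have h3 := D.cp_fix h
  have h4 := D'.cp_fix h.symm
  have h5 := D'.cp_le h.symm
  have h6 := D.card_img_mul R
  rw [inf_comm R] at h5
  have z2 : ∀ d ∈ Q ⊓ R, d ≠ 1 → Nat.card (zpowers d) = 2 := fun d hd n => by
    rw [Nat.card_zpowers, orderOf_eq_prime ((pow_two d).trans (h.sq_inf hd)) n]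
  have h7 : Nat.card ↥(Q ⊓ R) ≤ 4 := by
    obtain ⟨d, hd, n'⟩ := (nontrivial_iff_exists_ne_one _).1 (Finite.one_lt_card_iff_nontrivial.1
      (show 1 < Nat.card ↥(Q ⊓ R) by omega))
    obtain ⟨x, hx, e⟩ := D.exists_c h n hd.1 fun a ha => h.comm_inf hd ha
    have := card_le_mul (Q ⊓ R) (zpowers d) (fun d' => polar q (D.π x) (D.π d')) fun a ha b hb e' => by
      by_contra k
      refine D.g2 h n hd (mul_mem (inv_mem ha) hb) n' (fun e => k (e ▸ one_mem _)) (fun e => k (e ▸ mem_zpowers d)) e ?_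
      rw [D.π_mul (inv_mem ha.1) hb.1, D.π_inv ha.1, polar_add_right, e', vadd_self]
    have := card_le_of_le (inf_le_right : Q ⊓ R ⊓ zpowers d ≤ _)
    rw [z2 d hd n'] at this
    simp only [Nat.card_zmod] at *
    omega
  have e := fix_eq_comm D.nd D.cardV (D.ρ_sq h.c (h.uu ▸ one_mem _)) (by omega)
  obtain ⟨α, iv, hα⟩ := (sylow (D.cp_sq h)).2 (by rw [D.card_comap]; nlinarith)
  have fx : ∀ i, ∀ v ∈ O.fix (D.ρ u), (μ (sg i (α i))).1 v = v := fun i v hv => by
    obtain ⟨b, b1, b2, k⟩ := D.mem_comap.1 ((hα _).2 (sg_in (i := i) (.inr rfl)))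
    obtain ⟨x, hx, rfl⟩ := D.π_surj v
    obtain ⟨d, hd, k'⟩ := D.cross' h hx (D.comm_of_fix h.c n hx (O.mem_fix.1 hv)) b1 b2
    rw [← k, D.μ_la b2, ← vadd_eq_zero, k']
    by_contra n0
    have n1 : d ≠ 1 := fun e => n0 (e ▸ D.π_one)
    obtain ⟨d', hd', n2⟩ := SetLike.not_le_iff_exists.1 fun k : Q ⊓ R ≤ zpowers d => by
      have := card_le_of_le k
      rw [z2 d hd n1] at this
      omega
    obtain ⟨y, ey⟩ := O.mem_comm.1 (e.ge hv)
    refine D.g2 h n hd hd' n1 (fun e => n2 (e ▸ one_mem _)) (fun e => n2 (e ▸ mem_zpowers d)) (v := (D.ρ b).1 y + y) ?_ ?_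
    · rw [← k', ← ey, vsub, map_add, map_add, ← O.mul_apply, (D.ρ_comm h.c b2 (h.cu b1)).eq, O.mul_apply, add_add_add_comm]
    · rw [polar_comm]
      exact polar_fix _ (D.fix_of_commute b2 hd'.1 (h.symm.comm_inf ⟨hd'.2, hd'.1⟩ b1 b2).symm) _
  refine no_wc D.nd D.inj iv (W := O.fix (D.ρ u)) (by omega) (fun v hv => ?_) fx fun i v => ?_
  · obtain ⟨y, rfl⟩ := O.mem_comm.1 (e.ge hv)
    exact vsub _ y ▸ D.q_comm h.c h.uu n y
  · exact e.le (O.perp_fix D.nd _ ▸ mem_perp.2 fun w hw => polar_fix _ (fx i w hw) v)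

end SD

end Cfsg.Lib.O8
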